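import Cfsg.Agent.Lib.HallHigman.Reduction
import Cfsg.Agent.Lib.Core.CoprimeMap
import Cfsg.Agent.Lib.Core.PSolvable

/-!
# `p`-elements acting non-trivially on `q`-subgroups

If the Sylow `p`-subgroups of a `p`-solvable group are not normal, then some `p`-element `y` acts
on a `q`-subgroup `Q` (`q ≠ p`) with `y ^ p` centralizing `Q`, `[Q, y] = Q ≠ 1` and `C_Q(y) ≤ Z(Q)`.
-/

set_option autoImplicit false

namespace Cfsg.Agent.Lib.CharDeep.Winter

open Subgroup Cfsg Cfsg.Agent.Lib.Core.Basic Cfsg.Agent.Lib.Core.PSolvable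
open scoped commutatorElement

universe u

variable {G : Type u} [Group G] [Finite G] {p : ℕ} [hp : Fact p.Prime]

/-- A `q`-subgroup of the quotient by a `p`-group lifts to a `q`-subgroup. -/
theorem exists_lift_pgroup {H : Type u} [Group H] (π : G →* H) (hπ : Function.Surjective π)
    {q : ℕ} [hq : Fact q.Prime] {B : Subgroup H} (hB : IsPGroup q B) :
    ∃ S : Subgroup G, IsPGroup q S ∧ S.map π = B := by
  classical
  let M : Subgroup G := B.comap π
  let R : Sylow q M := default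
  let f : M →* B := π.subgroupComap B
  have hf : Function.Surjective f := π.subgroupComap_surjective_of_surjective B hπ
  let K : Subgroup B := (R : Subgroup M).map f
  have h1 : K.index ∣ (R : Subgroup M).index := Subgroup.index_map_dvd _ hf
  have hfinB : Finite B := by
    have : Finite H := Finite.of_surjective π hπ
    infer_instance
  have h2 : K.index ∣ Nat.card B := Subgroup.index_dvd_card K
  obtain ⟨a, ha⟩ := IsPGroup.iff_card.mp hB
  rw [ha] at h2
  obtain ⟨j, -, hj⟩ := (Nat.dvd_prime_pow hq.out).mp h2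
  have hK1 : K.index = 1 := by
    by_contra hne
    have hj0 : j ≠ 0 := by
      rintro rfl
      exact hne (by simpa using hj)
    have h3 : q ∣ K.index := by
      rw [hj]
      exact dvd_pow_self q hj0
    exact R.not_dvd_index (h3.trans h1)
  have hKtop : K = ⊤ := Subgroup.index_eq_one.mp hK1
  refine ⟨(R : Subgroup M).map M.subtype, R.isPGroup'.map _, ?_⟩
  ext g
  constructor
  · rintro ⟨_, ⟨r, _, rfl⟩, rfl⟩
    exact r.2
  · intro hg
    have hmem : (⟨g, hg⟩ : B) ∈ K := by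
      rw [hKtop]
      trivial
    obtain ⟨r, hr, hre⟩ := hmem
    refine ⟨r.1, ⟨r, hr, rfl⟩, ?_⟩
    exact congrArg Subtype.val hre

/-- The critical configuration. -/
theorem exists_crit (hS : IsPSolvable p G) (P : Sylow p G) (hP : ¬ (P : Subgroup G).Normal) :
    ∃ (q : ℕ) (_ : Fact q.Prime) (Q : Subgroup G) (y : G), q ≠ p ∧ IsPGroup q Q ∧
      (∃ k : ℕ, y ^ p ^ k = 1) ∧ y ∈ normalizer (Q : Set G) ∧
      (∀ h ∈ Q, y ^ p * h = h * y ^ p) ∧ ⁅Q, zpowers y⁆ = Q ∧ Q ≠ ⊥ ∧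
      (∀ c ∈ Q, c * y = y * c → ∀ h ∈ Q, c * h = h * c) := by
  classical
  have hpp : p.Prime := hp.out
  let O : Subgroup G := pCore p G
  haveI hOn : O.Normal := pCore_normal p G
  have hOp : IsPGroup p O := pCore_isPGroup
  let π : G →* G ⧸ O := QuotientGroup.mk' O
  have hπ : Function.Surjective π := QuotientGroup.mk'_surjective O
  have hkerπ : ∀ g : G, π g = 1 ↔ g ∈ O := fun g => QuotientGroup.eq_one_iff g
  -- an element of `P` outside `O`
  obtain ⟨x, hxP, hxO⟩ : ∃ x ∈ (P : Subgroup G), x ∉ O := by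
    by_contra hcon
    push Not at hcon
    have hle : (P : Subgroup G) ≤ O := hcon
    have heq : (P : Subgroup G) = O := (P.3 hOp hle).symm
    apply hP
    rw [heq]
    exact hOn
  have hx1 : π x ≠ 1 := fun h => hxO ((hkerπ x).mp h)
  obtain ⟨k, hk⟩ := IsPGroup.iff_orderOf.mp P.isPGroup' (⟨x, hxP⟩ : (P : Subgroup G))
  have hk' : orderOf x = p ^ k := by
    rw [← hk]
    exact (Subgroup.orderOf_mk x hxP).symm
  have hd : orderOf (π x) ∣ p ^ k := by
    rw [← hk']
    exact orderOf_map_dvd π x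
  obtain ⟨j, -, hj⟩ := (Nat.dvd_prime_pow hpp).mp hd
  obtain ⟨m, rfl⟩ : ∃ m, j = m + 1 := by
    refine ⟨j - 1, ?_⟩
    have : j ≠ 0 := by
      rintro rfl
      exact hx1 (orderOf_eq_one_iff.mp (by simpa using hj))
    omega
  let u : G := x ^ p ^ m
  have huP : u ∈ (P : Subgroup G) := Subgroup.pow_mem _ hxP _
  have huπ : π u = π x ^ p ^ m := map_pow _ _ _
  have hup : π u ^ p = 1 := by
    rw [huπ, ← pow_mul, ← pow_succ, ← hj, pow_orderOf_eq_one]
  have hu1 : π u ≠ 1 := by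
    intro h
    rw [huπ] at h
    have h1 : orderOf (π x) ∣ p ^ m := orderOf_dvd_of_pow_eq_one h
    rw [hj] at h1
    have h2 := Nat.le_of_dvd (pow_pos hpp.pos m) h1
    have h3 : p ^ m < p ^ (m + 1) := Nat.pow_lt_pow_right hpp.one_lt (Nat.lt_succ_self m)
    omega
  have hordu : orderOf (π u) = p ^ (0 + 1) := by
    rw [zero_add, pow_one]
    exact orderOf_eq_prime hup hu1
  have hS' : IsPSolvable p (G ⧸ O) := isPSolvable_of_surjective π hπ hS
  have hO' : pCore p (G ⧸ O) = ⊥ := pCore_quotient_eq_bot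
  obtain ⟨q, hq, QB, hqp, hQB, hxQB, hQY, hQbot, -⟩ :=
    Cfsg.Agent.Lib.HallHigman.Reduction.exists_critical hS' hO' (π u) 0 hordu
  simp only [pow_zero, pow_one] at hQY
  obtain ⟨S, hSq, hSB⟩ := exists_lift_pgroup π hπ hQB
  -- conjugating `S` by `u`
  have hconj : ∀ s ∈ S, u * s * u⁻¹ ∈ O ⊔ S := by
    intro s hs
    have h1 : π s ∈ QB := by
      rw [← hSB]
      exact ⟨s, hs, rfl⟩
    have h2 : π (u * s * u⁻¹) ∈ QB := by
      rw [map_mul, map_mul, map_inv]
      exact (Subgroup.mem_normalizer_iff.mp hxQB _).mp h1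
    rw [← hSB] at h2
    obtain ⟨s', hs', hse⟩ := h2
    have h3 : (u * s * u⁻¹) * s'⁻¹ ∈ O := by
      rw [← hkerπ, map_mul, map_inv, hse, mul_inv_cancel]
    have h4 : u * s * u⁻¹ = ((u * s * u⁻¹) * s'⁻¹) * s' := by group
    rw [h4]
    exact Subgroup.mul_mem_sup h3 hs'
  have hcop : (Nat.card O).Coprime q := by
    obtain ⟨a, ha⟩ := IsPGroup.iff_card.mp hOp
    rw [ha]
    exact Nat.Coprime.pow_left _ ((Nat.coprime_primes hpp hq.out).mpr hqp.symm)
  obtain ⟨n, hnO, hz⟩ :=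
    Cfsg.Agent.Lib.Core.CoprimeMap.exists_mem_normalizer_of_conj_mem_sup hOn hSq hcop hconj
  set z : G := n⁻¹ * u with hzdef
  have hzπ : π z = π u := by
    rw [hzdef, map_mul, map_inv, (hkerπ n).mpr hnO, inv_one, one_mul]
  have hzpO : z ^ p ∈ O := by
    rw [← hkerπ, map_pow, hzπ, hup]
  -- `S` meets `O` trivially
  have hSO : S ⊓ O = ⊥ := by
    apply Subgroup.inf_eq_bot_of_coprime
    obtain ⟨a, ha⟩ := IsPGroup.iff_card.mp hOp
    obtain ⟨b, hb⟩ := IsPGroup.iff_card.mp hSq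
    rw [ha, hb]
    exact Nat.Coprime.pow _ _ ((Nat.coprime_primes hq.out hpp).mpr hqp)
  have hzS : ∀ s ∈ S, z * s * z⁻¹ ∈ S := fun s hs => (Subgroup.mem_normalizer_iff.mp hz s).mp hs
  have hzpS : z ^ p ∈ normalizer (S : Set G) := Subgroup.pow_mem _ hz _
  have hzpcomm : ∀ h ∈ S, z ^ p * h = h * z ^ p := by
    intro h hh
    have h1 : (z ^ p * h * (z ^ p)⁻¹) * h⁻¹ ∈ S :=
      S.mul_mem ((Subgroup.mem_normalizer_iff.mp hzpS h).mp hh) (S.inv_mem hh)
    have h2 : (z ^ p * h * (z ^ p)⁻¹) * h⁻¹ ∈ O := by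
      have h3 : (z ^ p * h * (z ^ p)⁻¹) * h⁻¹ = z ^ p * (h * (z ^ p)⁻¹ * h⁻¹) := by group
      rw [h3]
      exact O.mul_mem hzpO (hOn.conj_mem _ (O.inv_mem hzpO) h)
    have h4 : (z ^ p * h * (z ^ p)⁻¹) * h⁻¹ ∈ S ⊓ O := ⟨h1, h2⟩
    rw [hSO, Subgroup.mem_bot] at h4
    have h5 : z ^ p * h * (z ^ p)⁻¹ = h := by
      have := mul_inv_eq_one.mp h4
      exact this
    calc z ^ p * h = (z ^ p * h * (z ^ p)⁻¹) * z ^ p := by group
      _ = h * z ^ p := by rw [h5]
  -- `z` is a `p`-element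
  obtain ⟨k₁, hk₁⟩ := IsPGroup.iff_orderOf.mp hOp (⟨z ^ p, hzpO⟩ : O)
  have hzk : z ^ p ^ (k₁ + 1) = 1 := by
    have h1 : (z ^ p) ^ p ^ k₁ = 1 := by
      have h2 : orderOf (z ^ p) = p ^ k₁ := by
        rw [← hk₁]
        exact (Subgroup.orderOf_mk _ hzpO).symm
      rw [← h2, pow_orderOf_eq_one]
    rw [pow_succ', pow_mul]
    exact h1
  -- `z` does not centralize `S`
  let Y : Subgroup G := zpowers z
  have hzY : z ∈ Y := Subgroup.mem_zpowers z
  have hne : ¬ S ≤ centralizer (Y : Set G) := by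
    intro hle
    apply hQbot
    rw [← hQY]
    rw [Subgroup.commutator_eq_bot_iff_le_centralizer]
    intro b hb
    rw [← hSB] at hb
    obtain ⟨s, hs, rfl⟩ := hb
    rw [Subgroup.mem_centralizer_iff]
    intro w hw
    obtain ⟨i, rfl⟩ := Subgroup.mem_zpowers_iff.mp hw
    have h1 : s * z = z * s := (Subgroup.mem_centralizer_iff.mp (hle hs) z hzY).symm
    have h2 : π s * π u = π u * π s := by
      rw [← hzπ, ← map_mul, ← map_mul, h1]
    exact ((Commute.zpow_right (h2) i).eq).symm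
  have hYS : Y ≤ normalizer (S : Set G) := by
    rw [Subgroup.zpowers_le]
    exact hz
  have hcopY : (Nat.card Y).Coprime (Nat.card S) := by
    have hY : IsPGroup p Y := by
      rw [IsPGroup.iff_orderOf]
      intro w
      have h1 : orderOf (w : G) ∣ p ^ (k₁ + 1) := by
        apply orderOf_dvd_of_pow_eq_one
        obtain ⟨i, hi⟩ := Subgroup.mem_zpowers_iff.mp w.2
        rw [← hi, ← zpow_natCast, zpow_comm, zpow_natCast, hzk, one_zpow]
      obtain ⟨j, -, hj⟩ := (Nat.dvd_prime_pow hpp).mp h1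
      refine ⟨j, ?_⟩
      rw [Subgroup.orderOf_coe] at hj
      exact hj
    obtain ⟨a, ha⟩ := IsPGroup.iff_card.mp hY
    obtain ⟨b, hb⟩ := IsPGroup.iff_card.mp hSq
    rw [ha, hb]
    exact Nat.Coprime.pow _ _ ((Nat.coprime_primes hpp hq.out).mpr hqp.symm)
  have hYcomm : IsMulCommutative Y := ⟨⟨fun a b => by
    apply Subtype.ext
    obtain ⟨i, hi⟩ := Subgroup.mem_zpowers_iff.mp a.2
    obtain ⟨j, hj⟩ := Subgroup.mem_zpowers_iff.mp b.2
    change (a : G) * b = b * a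
    rw [← hi, ← hj]
    exact ((Commute.refl z).zpow_zpow i j).eq⟩⟩
  have hYsolv : Group.IsSolvable Y := by
    haveI : IsMulCommutative Y := hYcomm
    infer_instance
  have hYY : Y ≤ normalizer (Y : Set G) := Subgroup.le_normalizer
  obtain ⟨Q, hQS, hYQ, hQc, hQne, hQZ⟩ :=
    Cfsg.Agent.Lib.HallHigman.Reduction.exists_minimal Y Y S le_rfl hYY hSq hYS hcopY hYsolv hne
  refine ⟨q, hq, Q, z, hqp, hSq.to_le hQS, ⟨k₁ + 1, hzk⟩, hYQ hzY,
    fun h hh => hzpcomm h (hQS hh), hQc, hQne, ?_⟩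
  intro c hc hcz
  apply hQZ c hc
  intro w hw
  obtain ⟨i, rfl⟩ := Subgroup.mem_zpowers_iff.mp hw
  exact ((Commute.zpow_right (hcz) i).eq)

end Cfsg.Agent.Lib.CharDeep.Winter
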